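import Cfsg.Agent.H838.IF.Defs
import Cfsg.Agent.H450.UF.Count

/-!
# S5719, `PSU_4(q)`, `q` odd: the types of the involutions modulo scalars (W6a, helper910)
-/

set_option autoImplicit false

namespace Cfsg.Agent.H910.IF

open Module Subgroup Cfsg Cfsg.Agent.H91.U Cfsg.Agent.H450.UF Cfsg.Agent.H450.Bs Cfsg.Agent.H838.IF

section

variable {F V : Type*} [Field F] [Fintype F] [AddCommGroup V] [Module F V] [FiniteDimensional F V] {σ : F →+* F}
  {B : V →ₛₗ[σ] V →ₗ[F] F} {q : ℕ}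

/-- the eigenspace -/
def ei (t : V ≃ₗ[F] V) (m : F) : Submodule F V where
  carrier := {v | t v = m • v}
  add_mem' := fun {a b} ha hb => by
    change t (a + b) = m • (a + b)
    rw [map_add, ha, hb, smul_add]
  zero_mem' := by change t 0 = m • 0; rw [map_zero, smul_zero]
  smul_mem' := fun c x hx => by
    change t (c • x) = m • (c • x)
    rw [map_smul, hx, smul_comm]

omit [Fintype F] [FiniteDimensional F V] in
theorem mem_ei {t : V ≃ₗ[F] V} {m : F} {v : V} : v ∈ ei t m ↔ t v = m • v := Iff.rfl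

/-- the setting: `t^2 = m^2`, `m σ(m) = 1`, characteristic not two -/
structure Set2 (B : V →ₛₗ[σ] V →ₗ[F] F) (t : V ≃ₗ[F] V) (m : F) : Prop where
  two : (2 : F) ≠ 0
  ne : m ≠ 0
  nm : σ m * m = 1
  sq : ∀ v, t (t v) = (m * m) • v
  iso : ∀ x y, B (t x) (t y) = B x y

namespace Set2

variable {t : V ≃ₗ[F] V} {m : F}

omit [Fintype F] [FiniteDimensional F V] in
theorem neg (h : Set2 B t m) : Set2 B t (-m) :=
  ⟨h.two, neg_ne_zero.2 h.ne, by rw [map_neg, neg_mul_neg, h.nm], fun v => by rw [h.sq, neg_mul_neg], h.iso⟩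

omit [Fintype F] [FiniteDimensional F V] in
theorem ort (h : Set2 B t m) {x y : V} (hx : x ∈ ei t m) (hy : y ∈ ei t (-m)) : B x y = 0 := by
  have h1 := h.iso x y
  rw [mem_ei.1 hx, mem_ei.1 hy, smul_left', smul_right', ← mul_assoc, mul_neg, h.nm, neg_one_mul] at h1
  have h2 : 2 * B x y = 0 := by
    rw [two_mul]
    nth_rewrite 1 [← h1]
    exact neg_add_cancel _
  exact (mul_eq_zero.1 h2).resolve_left h.two

omit [Fintype F] [FiniteDimensional F V] in
theorem isCompl (h : Set2 B t m) : IsCompl (ei t m) (ei t (-m)) := by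
  have h2 := h.two
  refine ⟨?_, ?_⟩
  · rw [Submodule.disjoint_def]
    intro x hx hy
    have h3 : m • x = (-m) • x := (mem_ei.1 hx).symm.trans (mem_ei.1 hy)
    rw [neg_smul, ← sub_eq_zero, sub_neg_eq_add, ← two_smul F, smul_smul] at h3
    exact (smul_eq_zero.1 h3).resolve_left (mul_ne_zero h2 h.ne)
  · rw [codisjoint_iff, Submodule.eq_top_iff']
    intro v
    have h3 : v = (2 : F)⁻¹ • (v + m⁻¹ • t v) + (2 : F)⁻¹ • (v - m⁻¹ • t v) := by
      rw [← smul_add]
      have : v + m⁻¹ • t v + (v - m⁻¹ • t v) = (2 : F) • v := by rw [two_smul]; abel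
      rw [this, smul_smul, inv_mul_cancel₀ h2, one_smul]
    rw [h3]
    refine Submodule.add_mem_sup (Submodule.smul_mem _ _ ?_) (Submodule.smul_mem _ _ ?_)
    · rw [mem_ei, map_add, map_smul, h.sq, smul_add, smul_smul, smul_smul, ← mul_assoc, inv_mul_cancel₀ h.ne, one_mul,
        mul_inv_cancel₀ h.ne, one_smul, add_comm]
    · rw [mem_ei, map_sub, map_smul, h.sq, smul_sub, smul_smul, smul_smul, ← mul_assoc, inv_mul_cancel₀ h.ne, one_mul,
        neg_mul, mul_inv_cancel₀ h.ne, neg_smul, neg_smul, one_smul]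
      abel

omit [Fintype F] in
theorem dim (h : Set2 B t m) : finrank F (ei t m) + finrank F (ei t (-m)) = finrank F V :=
  Submodule.finrank_add_eq_of_isCompl h.isCompl

theorem pp_eq (hB : HForm B) (h : Set2 B t m) : pp B (ei t m) = ei t (-m) := by
  symm
  apply Submodule.eq_of_le_of_finrank_eq
  · intro y hy
    rw [mem_pp]
    intro x hx
    exact hB.swap_zero (h.ort hx hy)
  · have h1 := finrank_pp hB (ei t m)
    have h2 := h.dim
    omega

omit [Fintype F] [FiniteDimensional F V] in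
theorem ne_top (_ : Set2 B t m) (hs : ¬ Scal t) : ei t m ≠ ⊤ := by
  intro e
  exact hs ⟨m, fun v => by have : v ∈ ei t m := by rw [e]; exact Submodule.mem_top
                           exact this⟩

omit [Fintype F] [FiniteDimensional F V] in
theorem nd (hB : HForm B) (h : Set2 B t m) : ∀ x ∈ ei t (-m), (∀ y ∈ ei t (-m), B x y = 0) → x = 0 := by
  intro x hx h1
  apply hB.eq_zero
  intro y
  have h2 : y ∈ ei t m ⊔ ei t (-m) := by rw [h.isCompl.sup_eq_top]; exact Submodule.mem_top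
  obtain ⟨a, ha, b, hb, rfl⟩ := Submodule.mem_sup.1 h2
  rw [map_add, hB.swap_zero (h.ort ha hx), h1 b hb, add_zero]

/-- dimensions `(3, 1)` -/
theorem refl (hB : HForm B) (h : Set2 B t m) (hd : finrank F (ei t (-m)) = 1) :
    ∃ (v : V) (m : F), B v v ≠ 0 ∧ m ≠ 0 ∧ t v = -(m • v) ∧ ∀ u, B v u = 0 → t u = m • u := by
  obtain ⟨⟨v, hv⟩, hv0, h1⟩ := finrank_eq_one_iff'.1 hd
  have hv0' : v ≠ 0 := fun e => hv0 (Subtype.ext e)
  have hs : ∀ w ∈ ei t (-m), ∃ c : F, w = c • v := fun w hw => by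
    obtain ⟨c, hc⟩ := h1 ⟨w, hw⟩
    exact ⟨c, (congrArg Subtype.val hc).symm⟩
  refine ⟨v, m, ?_, h.ne, ?_, ?_⟩
  · intro e
    apply hv0'
    refine h.nd hB v hv fun y hy => ?_
    obtain ⟨c, rfl⟩ := hs y hy
    rw [smul_right', e, mul_zero]
  · rw [mem_ei.1 hv, neg_smul]
  · intro u hu
    have h2 : u ∈ pp B (ei t (-m)) := by
      rw [mem_pp]
      intro z hz
      obtain ⟨c, rfl⟩ := hs z hz
      rw [smul_right', hB.swap_zero hu, mul_zero]
    rw [h.neg.pp_eq hB, neg_neg] at h2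
    exact h2

/-- dimensions `(2, 2)` -/
theorem first (hB : HForm B) (h : Set2 B t m) (hd : finrank F (ei t (-m)) = 2) :
    ∃ (P : Submodule F V) (s : V ≃ₗ[F] V) (a : F), NP B P ∧ Neg B s P ∧ s ∈ SIso B ∧ (∀ v, t v = a • s v) := by
  have hm : m⁻¹ ≠ 0 := inv_ne_zero h.ne
  set s : V ≃ₗ[F] V := t.trans (LinearEquiv.smulOfNeZero F V m⁻¹ hm) with hsd
  have hs : ∀ v, s v = m⁻¹ • t v := fun v => rfl
  have hts : ∀ v, t v = m • s v := fun v => by rw [hs, smul_smul, mul_inv_cancel₀ h.ne, one_smul]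
  have hs1 : ∀ x ∈ ei t (-m), s x = -x := fun x hx => by
    rw [hs, mem_ei.1 hx, smul_smul, mul_neg, inv_mul_cancel₀ h.ne, neg_smul, one_smul]
  have hs2 : ∀ x ∈ ei t m, s x = x := fun x hx => by
    rw [hs, mem_ei.1 hx, smul_smul, inv_mul_cancel₀ h.ne, one_smul]
  have hnm : σ m⁻¹ * m⁻¹ = 1 := by
    rw [map_inv₀, ← mul_inv, h.nm, inv_one]
  refine ⟨ei t (-m), s, m, ⟨hd, h.nd hB⟩, ⟨hs1, ?_⟩, ⟨?_, ?_⟩, hts⟩
  · intro u hu
    rw [h.neg.pp_eq hB, neg_neg] at hu
    exact hs2 u hu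
  · -- the determinant
    have hle : ei t (-m) ≤ (ei t (-m)).comap (s : V →ₗ[F] V) := by
      intro x hx
      rw [Submodule.mem_comap]
      change s x ∈ ei t (-m)
      rw [hs1 x hx]
      exact Submodule.neg_mem _ hx
    have h1 := LinearMap.det_eq_det_mul_det (ei t (-m)) (s : V →ₗ[F] V) hle
    have h2 : (s : V →ₗ[F] V).restrict (p := ei t (-m)) (q := ei t (-m)) hle = (-1 : F) • LinearMap.id := by
      ext ⟨w, hw⟩ : 1
      apply Subtype.ext
      change s w = (-1 : F) • w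
      rw [hs1 w hw, neg_one_smul]
    have h3 : (ei t (-m)).mapQ (ei t (-m)) (s : V →ₗ[F] V) hle = LinearMap.id := by
      ext w
      change Submodule.Quotient.mk (s w) = (Submodule.Quotient.mk w : V ⧸ ei t (-m))
      rw [Submodule.Quotient.eq]
      have h4 : w ∈ ei t m ⊔ ei t (-m) := by rw [h.isCompl.sup_eq_top]; exact Submodule.mem_top
      obtain ⟨a, ha, b, hb, rfl⟩ := Submodule.mem_sup.1 h4
      rw [map_add, hs2 a ha, hs1 b hb, add_sub_add_left_eq_sub]
      exact Submodule.sub_mem _ (Submodule.neg_mem _ hb) hb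
    apply Units.ext
    rw [LinearEquiv.coe_det, h1, h2, h3, LinearMap.det_smul, LinearMap.det_id, LinearMap.det_id, hd, Units.val_one]
    ring
  · intro x y
    rw [hs, hs, smul_left', smul_right', h.iso, ← mul_assoc, hnm, one_mul]

end Set2

/-- W6a: the types of the involutions modulo scalars -/
theorem types (hB : HForm B) (hF : Fintype.card F = q ^ 2) (hV : finrank F V = 4) (hq : Odd q) {t : V ≃ₗ[F] V}
    (ht : t ∈ SIso B) (h1 : ¬ Scal t) (h2 : Scal (t * t)) :
    (∃ (P : Submodule F V) (s : V ≃ₗ[F] V) (a : F), NP B P ∧ Neg B s P ∧ s ∈ SIso B ∧ (∀ v, t v = a • s v)) ∨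
    (∃ (v : V) (m : F), B v v ≠ 0 ∧ m ≠ 0 ∧ t v = -(m • v) ∧ ∀ u, B v u = 0 → t u = m • u) ∨
    (∃ m : F, m ^ (q + 1) = -1 ∧ ∀ v, t (t v) = (m * m) • v) := by
  have hσ := sig_eq hF hB.ne_id hB.invol
  obtain ⟨z, hz⟩ := h2
  have hz : ∀ v, t (t v) = z • v := hz
  have hnt : Nontrivial V := Module.nontrivial_of_finrank_pos (R := F) (by omega)
  obtain ⟨x, hx⟩ := exists_ne (0 : V)
  obtain ⟨y, hxy⟩ := hB.exists_ne hx
  have hz1 : z ^ (q + 1) = 1 := by
    have h3 : B (t (t x)) (t (t y)) = B x y := by rw [ht.2, ht.2]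
    rw [hz, hz, smul_left', smul_right', ← mul_assoc, hσ, ← pow_succ] at h3
    exact mul_right_cancel₀ hxy (by rw [h3, one_mul])
  have hz0 : z ≠ 0 := by
    rintro rfl
    rw [zero_pow (by omega)] at hz1
    exact zero_ne_one hz1
  have hodd : Odd (Fintype.card F) := by rw [hF]; exact hq.pow
  have hchar : ringChar F ≠ 2 := by
    intro h
    have := FiniteField.even_card_iff_char_two.1 h
    rw [Nat.odd_iff] at hodd
    omega
  have h2 : (2 : F) ≠ 0 := Ring.two_ne_zero hchar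
  obtain ⟨k, hk⟩ := hq
  obtain ⟨m, hm⟩ : IsSquare z := by
    rw [FiniteField.isSquare_iff hchar hz0]
    have h3 : Fintype.card F / 2 = (q + 1) * k := by
      rw [hF, hk]
      have : (2 * k + 1) ^ 2 = 2 * ((2 * k + 1 + 1) * k) + 1 := by ring
      omega
    rw [h3, pow_mul, hz1, one_pow]
  have hm0 : m ≠ 0 := by
    rintro rfl
    exact hz0 (by rw [hm, mul_zero])
  have hm2 : m ^ (q + 1) * m ^ (q + 1) = 1 := by
    rw [← mul_pow, ← hm, hz1]
  rcases mul_self_eq_one_iff.1 hm2 with h3 | h3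
  · have hS : Set2 B t m := ⟨h2, hm0, by rw [hσ, ← pow_succ, h3], fun v => by rw [hz, hm], ht.2⟩
    have h4 := hS.dim
    rw [hV] at h4
    have h5 : finrank F (ei t m) ≠ 4 := fun e => hS.ne_top h1 (Submodule.eq_top_of_finrank_eq (by rw [e, hV]))
    have h6 : finrank F (ei t (-m)) ≠ 4 := fun e => hS.neg.ne_top h1 (Submodule.eq_top_of_finrank_eq (by rw [e, hV]))
    have h7 : finrank F (ei t (-m)) = 2 ∨ finrank F (ei t (-m)) = 1 ∨ finrank F (ei t m) = 1 := by omega
    rcases h7 with h7 | h7 | h7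
    · exact Or.inl (hS.first hB h7)
    · exact Or.inr (Or.inl (hS.refl hB h7))
    · refine Or.inr (Or.inl (hS.neg.refl hB ?_))
      rw [neg_neg]
      exact h7
  · exact Or.inr (Or.inr ⟨m, h3, fun v => by rw [hz, hm]⟩)

end

end Cfsg.Agent.H910.IF
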